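import Cfsg.Agent.Ree.N1
import Cfsg.Agent.PLocal.BTIb
import Cfsg.Agent.Small.ZassSylow
import Cfsg.Agent.Classical.MaxL2
import Cfsg.Agent.BG2.GL2
import Cfsg.Agent.BG.Sec3a

/-!
# `PGL₂(q)` is determined by the order and the numbers of elements of the same order
-/

set_option autoImplicit false

namespace CF.Nse
open Subgroup MulAction Cfsg CF.BG CF.Small CF.Perm CF.Classical
open scoped MatrixGroups

variable {G : Type*} [Group G] [Finite G] {p q : ℕ}

theorem inv_le {Ω : Type*} [MulAction G Ω] {P : Subgroup G} {o o' : Ω} (Z : ZSetup G Ω P o) (ho : o' ≠ o)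
    (hP : P ≠ ⊥) (od : Odd (♯P)) : {t : G | orderOf t = 2}.ncard ≤
      (1 + {t : G | orderOf t = 2 ∧ t • o = o'}.ncard) * ♯P := by
  classical
  have := ZS.finite Z
  have := Fintype.ofFinite G
  have := Fintype.ofFinite Ω
  have ex : ∀ t : G, ∃ b, orderOf t = 2 → b ≠ o ∧ (t • o = b ∨ t • o = o ∧ t • b = b) := fun t => by
    by_cases e : t • o = o
    swap
    · exact ⟨_, fun _ => ⟨e, .inl rfl⟩⟩
    by_cases m : t ∈ P
    · exact ⟨o, fun k => absurd (od.of_dvd_nat (k ▸ orderOf_dvd_card' m)) (by decide)⟩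
    · exact (ZS.exists_fix_of_notMem Z e m).imp fun b h _ => ⟨h.1, .inr ⟨e, h.2⟩⟩
  choose f hf using ex
  rw [Set.ncard_eq_toFinset_card', show ♯P = (Finset.univ.erase o).card by
    rw [Finset.card_erase_of_mem (Finset.mem_univ o), Finset.card_univ, ← Nat.card_eq_fintype_card, Z.card_eq ho]; rfl]
  refine Finset.card_le_mul_card_image_of_maps_to (f := f) (fun t ht => by simpa using (hf t (by simpa using ht)).1) _
    fun b hb => ?_
  have hb : b ≠ o := by simpa using hb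
  obtain ⟨u, hu, rfl⟩ := Z.trans o' b ho hb
  rw [← Set.ncard_coe_finset]
  refine (Set.ncard_le_ncard (t := {t : G | orderOf t = 2 ∧ t ∈ stab2 G o (u • o')} ∪ (fun t => u * t * u⁻¹) ''
    {t : G | orderOf t = 2 ∧ t • o = o'}) fun t ht => ?_).trans ((Set.ncard_union_le _ _).trans (add_le_add
      ((Set.ncard_le_one_iff_subsingleton).2 fun s hs t ht => ?_) (Set.ncard_image_le)))
  · obtain ⟨h1, h2⟩ : orderOf t = 2 ∧ f t = u • o' := by simpa using ht
    refine (h2 ▸ (hf t h1).2).symm.imp (⟨h1, ·⟩) fun e => ⟨u⁻¹ * t * u⁻¹⁻¹, ⟨(orderOf_conj' _ _).trans h1, ?_⟩, by group⟩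
    rw [inv_inv, mul_smul, mul_smul, Z.fix u hu, e, inv_smul_smul]
  · exact ZS.invol_unique Z hb hP hs.2 ht.2 (orderOf_eq_two_iff'.1 hs.1).1 (orderOf_eq_two_iff'.1 ht.1).1
      (orderOf_eq_two_iff'.1 hs.1).2 (orderOf_eq_two_iff'.1 ht.1).2

theorem zs [Fact p.Prime] {n : ℕ} (hq : q = p ^ n) (od : Odd q) (q1 : 1 < q) (c : Nat.card G = q * (q ^ 2 - 1))
    (i : ∀ x : G, x ^ q = 1 ∨ x ^ (q ^ 2 - 1) = 1) (P : Sylow p G) :
    ♯(P : Subgroup G) = q ∧ ZSetup G (Sylow p G) (P : Subgroup G) P := by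
  have q2 : q ^ 2 - 1 + 1 = q * q := by rw [Nat.sub_add_cancel (Nat.one_le_pow _ _ (by omega)), sq]
  have D0 : 0 < q ^ 2 - 1 := by nlinarith
  generalize q ^ 2 - 1 = D at *
  have co : q.Coprime D := ((Nat.coprime_self_add_right.2 (Nat.coprime_one_right D)).coprime_dvd_right
    (q2 ▸ dvd_mul_right q q)).symm
  have hP := syl_sylow_top P
  have cP : ♯(P : Subgroup G) = q := by
    obtain ⟨k, hk⟩ := hP.pi.card_pow
    have p1 : p ∣ q := hq ▸ dvd_pow_self p (by rintro rfl; simp at hq; omega)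
    exact Nat.dvd_antisymm ((hk ▸ (co.coprime_dvd_left p1).pow_left k :).dvd_of_dvd_mul_right
      (c ▸ card_subgroup_dvd_card _)) (hP.dvd_card (by rw [card_top, c]; exact dvd_mul_right _ _)
        (hq ▸ piNat_pow_self Fact.out n))
  have mS : ∀ x ∈ (P : Subgroup G), x ≠ 1 → x ∈ Sl G q := fun x hx x1 =>
    ⟨orderOf_dvd_iff_pow_eq_one.1 (cP ▸ orderOf_dvd_card' hx), x1⟩
  have cj : ∀ x ∈ Sl G q, ∀ g, g * x * g⁻¹ ∈ Sl G q := fun x hx g =>
    ⟨(pow_congr (orderOf_conj' g x)).2 hx.1, by simpa using hx.2⟩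
  have d : ∀ x ∈ Sl G q, D ∣ (𝐂₁ x).index := fun x hx => idx (fun y => (i y).symm) (c ▸ dvd_mul_left _ _) co.symm
    ((ne_or co hx.2).resolve_left (· hx.1))
  have cS : (Sl G q).ncard = D := by
    obtain ⟨j, hj⟩ := dvd_cls cj d
    have f := frob (c ▸ dvd_mul_right q D)
    have l : (Sl G q).ncard < Nat.card G := Set.ncard_univ G ▸ Set.ncard_lt_ncard ⟨Set.subset_univ _, fun k =>
      (k (Set.mem_univ 1)).2 rfl⟩
    rw [← Set.ncard_sdiff_singleton_add_one (s := {x : G | x ^ q = 1}) (a := 1) (one_pow q), ← Sl, hj] at f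
    rw [hj, c, mul_comm q, Nat.mul_lt_mul_left D0] at l
    rcases j with _ | j
    · exact absurd (Nat.le_of_dvd (by omega) f) (by omega)
    rw [mul_add_one, add_assoc, q2, Nat.dvd_add_left (dvd_mul_right _ _)] at f
    rw [hj, Nat.eq_zero_of_dvd_of_lt (co.dvd_of_dvd_mul_left f) (by omega), zero_add, mul_one]
  have cl : ∀ x ∈ Sl G q, (ConjClasses.mk x).carrier = Sl G q ∧ ♯(𝐂₁ x) = q := fun x hx => by
    have s : (ConjClasses.mk x).carrier ⊆ Sl G q := fun y hy => by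
      obtain ⟨g, rfl⟩ := isConj_iff.1 (ConjClasses.mk_eq_mk_iff_isConj.1 (ConjClasses.mem_carrier_iff_mk_eq.1 hy).symm)
      exact cj x hx g
    have l := Nat.le_of_dvd (Nat.pos_of_ne_zero index_ne_zero_of_finite) (d x hx)
    have l' := Set.ncard_le_ncard s
    rw [CF.Fgs2.ncard_carrier_mk, cS] at l'
    exact ⟨Set.eq_of_subset_of_ncard_le s (by rw [CF.Fgs2.ncard_carrier_mk, cS]; exact l),
      Nat.eq_of_mul_eq_mul_right D0 (by rw [← c, ← (𝐂₁ x).card_mul_index, l.antisymm l'])⟩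
  have cn : ∀ x ∈ Sl G q, ∀ y ∈ Sl G q, ∃ g, g * x * g⁻¹ = y := fun x hx y hy => isConj_iff.1
    (ConjClasses.mk_eq_mk_iff_isConj.1 (ConjClasses.mem_carrier_iff_mk_eq.1 ((cl x hx).1.ge hy)).symm)
  obtain ⟨z, hz, z1⟩ := exists_mem_ne_one (hP.pi.center_ne_bot (one_lt_card.1 (cP ▸ q1)))
  have ce : ∀ x ∈ 𝐙 (P : Subgroup G), x ≠ 1 → ↑P = 𝐂₁ x := fun x hx x1 => eq_of_card_le (le_cent1_iff.2 hx.2)
    ((cl x (mS x hx.1 x1)).2.trans cP.symm).le
  have nm : ∀ g, g * z * g⁻¹ ∈ 𝐙 (P : Subgroup G) → g ∈ 𝐍 (P : Subgroup G) := fun g hg => cj_eq_self.1 (by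
    rw [ce z hz z1, cj_cent1, ← ce _ hg (by simpa using z1), ce z hz z1])
  have ab : Abel (P : Subgroup G) := by
    obtain ⟨g, e⟩ := cn z (mS z hz.1 z1) z⁻¹ (mS _ (inv_mem hz.1) (inv_ne_one.2 z1))
    obtain ⟨t, ht, t1, t2⟩ := exists_invol_of_even_card (H := 𝐍 (P : Subgroup G)) (Nat.not_odd_iff_even.1 fun k => by
      have m : g ∈ 𝐂₁ z := CF.BG2.mem_of_sq_mem_of_odd (k.of_dvd_nat (orderOf_dvd_card' (nm g (e ▸ inv_mem hz))))
        (mem_cent1.2 (mul_inv_eq_iff_eq_mul.1 (by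
          rw [show g * g * z * (g * g)⁻¹ = g * (g * z * g⁻¹) * g⁻¹ by group, e,
            show g * z⁻¹ * g⁻¹ = (g * z * g⁻¹)⁻¹ by group, e, inv_inv])))
      rw [mem_cent1.1 m, mul_inv_cancel_right] at e
      exact z1 (eq_one_of_sq (od.of_dvd_nat (cP ▸ orderOf_dvd_card' hz.1)) (by nth_rw 2 [e]; exact mul_inv_cancel z)))
    refine fun a ha b hb => comm_of_inverts (conj_eq_inv_of_fpf ht t2 fun x hx e => by_contra fun x1 => ?_) b hb a ha
    exact absurd (od.of_dvd_nat ((cl x (mS x hx x1)).2 ▸ orderOf_eq_two_iff'.2 ⟨t1, t2⟩ ▸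
      orderOf_dvd_card' (mem_cent1.2 (mul_inv_eq_iff_eq_mul.1 e)))) (by decide)
  refine ⟨cP, zsetup_of_sylow (fun u hu u1 => (ce u ⟨hu, ab hu⟩ u1).ge) ?_⟩
  have e : {w | ∃ t ∈ 𝐍 (P : Subgroup G), t * z * t⁻¹ = w} = ((P : Subgroup G) : Set G) \ {1} := by
    ext w
    refine ⟨by rintro ⟨t, ht, rfl⟩; exact ⟨conj_mem_of_norm ht hz.1, by simpa using z1⟩, fun hw => ?_⟩
    obtain ⟨g, rfl⟩ := cn z (mS z hz.1 z1) w (mS w hw.1 hw.2)
    exact ⟨g, nm g ⟨hw.1, ab hw.1⟩, rfl⟩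
  have e1 := CF.Fgs2.card_conj_subgroup (𝐍 (P : Subgroup G)) z
  change Nat.card ↥{w | ∃ t ∈ 𝐍 (P : Subgroup G), t * z * t⁻¹ = w} = (𝐂₁ z).relIndex _ at e1
  rw [e, ← ce z hz z1, Nat.card_coe_set_eq, Set.ncard_sdiff_singleton_of_mem (one_mem _), ← Nat.card_coe_set_eq] at e1
  have e2 := card_mul_relIndex (le_norm_self (P : Subgroup G))
  have e3 := (𝐍 (P : Subgroup G)).card_mul_index
  change ♯(P : Subgroup G) - 1 = _ at e1
  rw [← e2, ← e1, cP, c, mul_assoc] at e3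
  rw [P.card_eq_index_normalizer, cP]
  refine Nat.eq_of_mul_eq_mul_left (show 0 < q - 1 by omega) ((Nat.eq_of_mul_eq_mul_left (by omega) e3).trans ?_)
  zify [q1.le] at *
  linarith

variable {F : Type*} [Field F]

theorem inv_ge [Finite F] (h2 : (2 : F) ≠ 0) : Nat.card F ^ 2 ≤ {t : PGL(2, F) | orderOf t = 2}.ncard := by
  classical
  rw [sq, ← Nat.card_prod, ← Set.ncard_univ]
  refine Set.ncard_le_ncard_of_injOn (fun x => if h : x.2 = 0 then pgl (-1) x.1 0 1 (by simp) else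
    pgl x.1 (x.2 - x.1 ^ 2) 1 (-x.1) (fun e => h (by linear_combination -e))) (fun x _ => ?_) fun x _ y _ e => ?_
  · have : (-1 : F) ≠ 1 := fun e => h2 (by linear_combination -e)
    split_ifs with h <;> simp only [Set.mem_ofPred_eq, orderOf_eq_two_iff', pgl_mul, Ne, pgl_eq_one_iff]
    · simp [this]
    · exact ⟨by simp, by ring, by ring, by ring⟩
  · dsimp only at e
    split_ifs at e with h1 h3 h3 <;> obtain ⟨u, e1, e2, e3, e4⟩ := pgl_eq_pgl_iff.1 e
    · exact Prod.ext (by rw [e2, show u = 1 by simpa using e4.symm, one_mul]) (h1.trans h3.symm)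
    · simp at e3
    · simp [show u = 0 by simpa using e3.symm] at e1
    · obtain rfl : u = 1 := by simpa using e3.symm
      exact Prod.ext (by simpa using e1.symm) (by rw [e1] at e2; linear_combination -e2)

theorem pgl_main [Fintype F] (od : Odd (Nat.card F)) (c : Nat.card G = Nat.card PGL(2, F))
    (e : nse G = nse PGL(2, F)) : Nonempty (G ≃* PGL(2, F)) := by
  obtain ⟨p, hp⟩ := CharP.exists F
  obtain ⟨n, hn, hq⟩ := exists_card_eq_pow F p
  have q1 := Finite.one_lt_card (α := F)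
  have := Fact.mk (CharP.char_is_prime F p)
  have h2 : (2 : F) ≠ 0 := Ring.two_ne_zero (by
    rw [Ne, FiniteField.even_card_iff_char_two, ← Nat.card_eq_fintype_card, Nat.odd_iff.1 od]; decide)
  have l := inv_ge h2
  have l1 : 1 < Nat.card F ^ 2 := Nat.one_lt_pow (by omega) q1
  obtain ⟨t, ot⟩ := (Set.ncard_pos (s := {t : PGL(2, F) | orderOf t = 2})).1 (by omega)
  have at' : a t = {t : PGL(2, F) | orderOf t = 2}.ncard := by rw [a, show orderOf t = 2 from ot]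
  have t1 : a t ≠ 1 := by omega
  rw [card_PGL_two] at c
  obtain ⟨P⟩ : Nonempty (Sylow p G) := inferInstance
  obtain ⟨cP, Z⟩ := zs hq od q1 c (iso_tr c card_PGL_two ((Nat.coprime_self_add_right.2
    (Nat.coprime_one_right _)).coprime_dvd_right (by
      rw [Nat.sub_add_cancel l1.le]; exact dvd_pow_self _ two_ne_zero)).symm (fun x x1 => tr e ot t1 x1) fun y => by
    rcases (isL2_PGL F (AlgebraicClosure F)).orderOf_cases p y with k | k | k
    · exact .inl (by rw [hq]; exact orderOf_dvd_iff_pow_eq_one.1 ((orderOf_dvd_of_pow_eq_one k).trans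
        (dvd_pow_self p hn.ne')))
    all_goals
      rw [index_range_id, mul_one] at k
      refine .inr (orderOf_dvd_iff_pow_eq_one.1 (k.trans ?_))
      rw [← one_pow 2, Nat.sq_sub_sq]
      simp) P
  obtain ⟨g, ho⟩ := Z.move
  have cH : ♯(stab2 G P (g • P)) + 1 = Nat.card F := by
    have := Z.card_group ho
    rw [cP, c, ← one_pow 2, Nat.sq_sub_sq, ← mul_assoc, mul_comm (Nat.card F)] at this
    have := Nat.eq_of_mul_eq_mul_left (by positivity) this
    omega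
  obtain ⟨s, s1, s2⟩ := Z.two_trans ho.symm ho
  obtain ⟨x, hx, x1, x2⟩ := exists_invol_of_even_card (H := stab2 G P (g • P))
    (Nat.not_odd_iff_even.1 (Nat.odd_add_one.1 (cH ▸ od)))
  have l2 := inv_le Z ho (one_lt_card.1 (cP ▸ q1)) (cP ▸ od)
  have ox := orderOf_eq_two_iff'.2 ⟨x1, x2⟩
  rw [show {t : G | orderOf t = 2}.ncard = a t by rw [← eq_inv e ot t1 ox, a, ox], cP] at l2
  have sw : {t : G | orderOf t = 2 ∧ t • P = g • P} = {t : G | t • P = g • P ∧ t • g • P = P} :=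
    Set.eq_of_subset_of_ncard_le (fun t ht => ⟨ht.2, by rw [← ht.2, ← mul_smul, (orderOf_eq_two_iff'.1 ht.1).2,
      one_smul]⟩) (by rw [ncard_swap s1 s2]; nlinarith)
  refine CF.BTI.pgl_of_inverts Z ho (cP ▸ q1) (cP.trans cH.symm) s1 s2 (fun h hh => ?_) F
    (Nat.card_eq_fintype_card.symm.trans cP.symm)
  have k1 := (orderOf_eq_two_iff'.1 (sw.ge ⟨s1, s2⟩).1).2
  have k2 := (orderOf_eq_two_iff'.1 (sw.ge (show s * h ∈ _ from ⟨by rw [mul_smul, hh.1, s1],
    by rw [mul_smul, hh.2, s2]⟩)).1).2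
  rw [inv_eq_of_mul_eq_one_right k1]
  exact eq_inv_of_mul_eq_one_left (by rw [← k2]; group)

end CF.Nse
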